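import Mathlib

/-!
Cocycles on a module with a normal subgroup fixing no non-zero vector, and the bound on fixed spaces
for groups generated by two conjugate subgroups.
-/

set_option autoImplicit false
set_option linter.unusedSectionVars false

open Module

namespace CfsgLib.Flavell45

universe u

variable {A : Type u} [Group A] [Finite A] {r : ℕ} [Fact r.Prime]
  {U : Type u} [AddCommGroup U] [Module (ZMod r) U] [Finite U]

/-- The vectors fixed by a set of operators. -/
def fixedSub (φ : A →* (U ≃ₗ[ZMod r] U)) (S : Set A) : Submodule (ZMod r) U where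
  carrier := {u | ∀ x ∈ S, φ x u = u}
  add_mem' := fun {a b} ha hb x hx => by rw [map_add, ha x hx, hb x hx]
  zero_mem' := fun x _ => map_zero _
  smul_mem' := fun c a ha x hx => by rw [map_smul, ha x hx]

theorem mem_fixedSub {φ : A →* (U ≃ₗ[ZMod r] U)} {S : Set A} {u : U} :
    u ∈ fixedSub φ S ↔ ∀ x ∈ S, φ x u = u := Iff.rfl

theorem finrank_fixedSub_conj (φ : A →* (U ≃ₗ[ZMod r] U)) (P : Subgroup A) (a : A) :
    finrank (ZMod r) ↥(fixedSub φ ((P.map (MulAut.conj a).toMonoidHom : Subgroup A) : Set A)) =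
      finrank (ZMod r) ↥(fixedSub φ (P : Set A)) := by
  have hmm : ∀ (x y : A) (u : U), φ (x * y) u = φ x (φ y u) := fun x y u => by rw [map_mul]; rfl
  have h : fixedSub φ ((P.map (MulAut.conj a).toMonoidHom : Subgroup A) : Set A) =
      (fixedSub φ (P : Set A)).map (φ a).toLinearMap := by
    ext u
    rw [Submodule.mem_map, mem_fixedSub]
    constructor
    · intro hu
      refine ⟨φ a⁻¹ u, fun x hx => ?_, ?_⟩
      · have h1 := hu (a * x * a⁻¹) ⟨x, hx, rfl⟩
        have h2 : φ a⁻¹ (φ (a * x * a⁻¹) u) = φ a⁻¹ u := congrArg (φ a⁻¹) h1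
        rw [← hmm, show a⁻¹ * (a * x * a⁻¹) = x * a⁻¹ by group, hmm] at h2
        exact h2
      · show φ a (φ a⁻¹ u) = u
        rw [← hmm, mul_inv_cancel, map_one]
        rfl
    · rintro ⟨w, hw, rfl⟩ y hy
      obtain ⟨x, hx, rfl⟩ := hy
      show φ (a * x * a⁻¹) (φ a w) = φ a w
      rw [← hmm, show a * x * a⁻¹ * a = a * x by group, hmm, hw x hx]
  rw [h]
  exact LinearEquiv.finrank_map_eq (φ a) _

/-- A cocycle on a module with a coprime normal subgroup fixing no non-zero vector is a coboundary. -/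
theorem exists_coboundary (φ : A →* (U ≃ₗ[ZMod r] U)) (Q : Subgroup A) [Q.Normal]
    (hQr : ¬ r ∣ Nat.card Q) (hfree : ∀ u : U, (∀ q ∈ Q, φ q u = u) → u = 0) (c : A → U)
    (hc : ∀ x y : A, c (x * y) = c x + φ x (c y)) : ∃ w : U, ∀ x : A, c x = w - φ x w := by
  classical
  have hmm : ∀ (x y : A) (u : U), φ (x * y) u = φ x (φ y u) := fun x y u => by rw [map_mul]; rfl
  haveI : Fintype Q := Fintype.ofFinite Q
  have hcard : (Nat.card Q : ZMod r) ≠ 0 := by
    rw [Ne, ZMod.natCast_eq_zero_iff]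
    exact hQr
  set n : ZMod r := (Nat.card Q : ZMod r) with hn
  let s : U := ∑ q : Q, c q
  have key : ∀ q : Q, n • c (q : A) = s - φ (q : A) s := by
    intro q
    have h1 : ∑ q' : Q, c ((q : A) * q') = s :=
      Fintype.sum_equiv (Equiv.mulLeft q) _ _ fun q' => rfl
    simp only [hc] at h1
    rw [Finset.sum_add_distrib, Finset.sum_const, ← map_sum, Finset.card_univ,
      ← Nat.card_eq_fintype_card, ← Nat.cast_smul_eq_nsmul (ZMod r), ← hn] at h1
    exact eq_sub_of_add_eq h1
  refine ⟨n⁻¹ • s, ?_⟩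
  have hQ0 : ∀ q ∈ Q, c q = n⁻¹ • s - φ q (n⁻¹ • s) := fun q hq => by
    rw [map_smul, ← smul_sub, ← key ⟨q, hq⟩, smul_smul, inv_mul_cancel₀ hcard, one_smul]
  set w := n⁻¹ • s
  intro x
  refine eq_of_sub_eq_zero (hfree _ fun q hq => ?_)
  have hxq : x⁻¹ * q * x ∈ Q := by simpa using (inferInstance : Q.Normal).conj_mem q hq x⁻¹
  have h2 : c (q * x) = c (x * (x⁻¹ * q * x)) := by
    rw [show x * (x⁻¹ * q * x) = q * x by group]
  rw [hc, hc, hQ0 q hq, hQ0 _ hxq, map_sub, ← hmm,
    show x * (x⁻¹ * q * x) = q * x by group, hmm] at h2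
  rw [map_sub, map_sub, eq_sub_of_add_eq' h2]
  abel

/-- The bound on fixed spaces of S3818, over prime fields. -/
def FixedBound : Prop :=
  ∀ (G : Type u) [Group G] [Finite G] [Group.IsSolvable G] (p : ℕ) [Fact p.Prime] (_ : 3 < p) (P : Subgroup G)
    (_ : Nat.card P = p) (_ : Subgroup.normalClosure (P : Set G) = ⊤) (ℓ : ℕ) [Fact ℓ.Prime]
    (V : Type u) [AddCommGroup V] [Module (ZMod ℓ) V] [FiniteDimensional (ZMod ℓ) V]
    (ρ : Representation (ZMod ℓ) G V) [ρ.IsIrreducible] (_ : Function.Injective ρ),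
    2 * Module.finrank (ZMod ℓ) ↥(⨅ g : ↥P, LinearMap.ker (ρ (g : G) - LinearMap.id)) <
      Module.finrank (ZMod ℓ) V

/-- The module is not the sum of the fixed spaces of two generating conjugates. -/
theorem sum_fixed_ne_top (hB : FixedBound.{u}) [Group.IsSolvable A] {p : ℕ} [hp : Fact p.Prime] (hp3 : 3 < p)
    (P : Subgroup A) (hP : Nat.card P = p) (a : A) (hgen : P ⊔ P.map (MulAut.conj a).toMonoidHom = ⊤)
    (φ : A →* (U ≃ₗ[ZMod r] U)) [Nontrivial U]
    (hirr : ∀ W : Submodule (ZMod r) U, (∀ x : A, ∀ u ∈ W, φ x u ∈ W) → W = ⊥ ∨ W = ⊤)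
    (hne : ∃ x : A, φ x ≠ 1) :
    fixedSub φ (P : Set A) ⊔ fixedSub φ ((P.map (MulAut.conj a).toMonoidHom : Subgroup A) : Set A) ≠ ⊤ := by
  intro htop
  let R : Subgroup (U ≃ₗ[ZMod r] U) := φ.range
  let f : A →* R := φ.rangeRestrict
  have hf : Function.Surjective f := φ.rangeRestrict_surjective
  haveI : Group.IsSolvable R := Group.isSolvable_of_surjective hf
  haveI : Finite R := Finite.of_surjective f hf
  have hPf : Nat.card (P.map f) = p := by
    have hd : Nat.card (P.map f) ∣ p := hP ▸ Subgroup.card_dvd_of_surjective _ (f.subgroupMap_surjective P)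
    rcases (Nat.dvd_prime hp.out).1 hd with h | h
    · exfalso
      obtain ⟨x, hx⟩ := hne
      have hbot : P.map f = ⊥ := Subgroup.card_eq_one.1 h
      have hall : P ⊔ P.map (MulAut.conj a).toMonoidHom ≤ f.ker := sup_le ((Subgroup.map_eq_bot_iff P).1 hbot)
        (by
          rintro _ ⟨y, hy, rfl⟩
          exact (inferInstance : f.ker.Normal).conj_mem y ((Subgroup.map_eq_bot_iff P).1 hbot hy) a)
      rw [hgen] at hall
      exact hx (congrArg Subtype.val (hall (Subgroup.mem_top x) : f x = 1))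
    · exact h
  have hncl : Subgroup.normalClosure ((P.map f : Subgroup R) : Set R) = ⊤ := by
    rw [eq_top_iff, ← Subgroup.map_top_of_surjective f hf, ← hgen, Subgroup.map_sup]
    refine sup_le Subgroup.le_normalClosure ?_
    rintro _ ⟨_, ⟨y, hy, rfl⟩, rfl⟩
    show f (a * y * a⁻¹) ∈ _
    rw [map_mul, map_mul, map_inv]
    exact Subgroup.normalClosure_normal.conj_mem _ (Subgroup.le_normalClosure (Subgroup.mem_map_of_mem f hy)) _
  let ρ : Representation (ZMod r) R U := LinearEquiv.automorphismGroup.toLinearMapMonoidHom.comp R.subtype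
  have hρ : Function.Injective ρ := fun x y h =>
    Subtype.ext (LinearEquiv.toLinearMap_injective h)
  haveI : ρ.IsIrreducible := by
    haveI : Nontrivial (Subrepresentation ρ) := by
      refine ⟨⟨⊥, ⊤, fun h => ?_⟩⟩
      have h' : (⊥ : Submodule (ZMod r) U) = ⊤ := congrArg Subrepresentation.toSubmodule h
      exact bot_ne_top h'
    refine ⟨fun W => ?_⟩
    rcases hirr W.toSubmodule (fun x u hu => W.apply_mem_toSubmodule (f x) hu) with h | h
    · exact Or.inl (Subrepresentation.toSubmodule_injective h)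
    · exact Or.inr (Subrepresentation.toSubmodule_injective h)
  haveI : FiniteDimensional (ZMod r) U := Module.Finite.of_finite
  have hb := hB R p hp3 (P.map f) hPf hncl r U ρ hρ
  have hle : fixedSub φ (P : Set A) ≤ ⨅ g : ↥(P.map f), LinearMap.ker (ρ (g : R) - LinearMap.id) := by
    refine le_iInf fun g u hu => ?_
    obtain ⟨y, hy, hyg⟩ := g.2
    rw [LinearMap.mem_ker, LinearMap.sub_apply, LinearMap.id_apply, sub_eq_zero, ← hyg]
    exact hu y hy
  have h1 := Submodule.finrank_mono hle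
  have h2 := Submodule.finrank_add_le_finrank_add_finrank (fixedSub φ (P : Set A))
    (fixedSub φ ((P.map (MulAut.conj a).toMonoidHom : Subgroup A) : Set A))
  rw [htop, finrank_top, finrank_fixedSub_conj] at h2
  omega

end CfsgLib.Flavell45
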