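import Cfsg.Agent.Flavell45.Cocycle
import Cfsg.Agent.Constrained.Fitting

/-!
Flavell: for a maximal two-conjugate-generated solvable subgroup `A` and an `A`-invariant nilpotent
subgroup `V`, the product of the Fitting subgroup of `A` with `V` is nilpotent.
-/

set_option autoImplicit false
set_option linter.unusedSectionVars false

open CfsgLib.Constrained

namespace CfsgLib.Flavell45

universe u

variable {G : Type u} [Group G] [Finite G]

/-- In a finite `r`-group commutators and `r`-th powers lie in the Frattini subgroup. -/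
theorem powers_commutators_mem_frattini {r : ℕ} [hr : Fact r.Prime] {W : Type u} [Group W] [Finite W]
    (hW : IsPGroup r W) : (∀ x : W, x ^ r ∈ frattini W) ∧ ∀ x y : W, x * y * x⁻¹ * y⁻¹ ∈ frattini W := by
  haveI := hW.isNilpotent
  have key : ∀ M : Subgroup W, IsCoatom M → (∀ x : W, x ^ r ∈ M) ∧ ∀ x y : W, x * y * x⁻¹ * y⁻¹ ∈ M := by
    intro M hM
    haveI hMn : M.Normal := Subgroup.NormalizerCondition.normal_of_coatom M Group.normalizerCondition_of_isNilpotent hM
    haveI : Nontrivial (W ⧸ M) := QuotientGroup.nontrivial_iff.2 hM.1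
    haveI : IsSimpleGroup (W ⧸ M) := ⟨fun H _ => by
      have hle : M ≤ H.comap (QuotientGroup.mk' M) := fun x hx => by
        rw [Subgroup.mem_comap, QuotientGroup.mk'_apply, (QuotientGroup.eq_one_iff x).2 hx]
        exact H.one_mem
      rcases hM.le_iff.1 hle with h | h
      · exact Or.inr (Subgroup.comap_injective (QuotientGroup.mk'_surjective M) (h.trans (Subgroup.comap_top _).symm))
      · exact Or.inl (Subgroup.comap_injective (QuotientGroup.mk'_surjective M)
          (h.trans ((MonoidHom.comap_bot _).trans (QuotientGroup.ker_mk' M)).symm))⟩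
    have hQ : IsPGroup r (W ⧸ M) := hW.to_quotient M
    haveI : Group.IsNilpotent (W ⧸ M) := hQ.isNilpotent
    have hcomm : ∀ x y : W ⧸ M, x * y = y * x := by
      have h1 : Subgroup.center (W ⧸ M) = ⊤ := by
        haveI : Nontrivial (W ⧸ M) := IsSimpleGroup.toNontrivial
        exact (IsSimpleGroup.eq_bot_or_eq_top_of_normal _ inferInstance).resolve_left
          (Subgroup.nontrivial_iff_ne_bot _ |>.1 hQ.center_nontrivial)
      exact fun x y => ((Subgroup.mem_center_iff.1 (h1 ▸ Subgroup.mem_top x)) y).symm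
    letI : CommGroup (W ⧸ M) := { (inferInstance : Group (W ⧸ M)) with mul_comm := hcomm }
    have hprime : (Nat.card (W ⧸ M)).Prime := IsSimpleGroup.prime_card
    have hcard : Nat.card (W ⧸ M) = r := by
      obtain ⟨n, hn⟩ := IsPGroup.iff_card.1 hQ
      rw [hn] at hprime ⊢
      rw [Nat.Prime.eq_one_of_pow hprime, pow_one]
    refine ⟨fun x => ?_, fun x y => ?_⟩
    · rw [← QuotientGroup.eq_one_iff, QuotientGroup.mk_pow, ← hcard, pow_card_eq_one']
    · rw [← QuotientGroup.eq_one_iff]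
      rw [QuotientGroup.mk_mul, QuotientGroup.mk_mul, QuotientGroup.mk_mul, QuotientGroup.mk_inv,
        QuotientGroup.mk_inv, hcomm (x : W ⧸ M) (y : W ⧸ M)]
      group
  refine ⟨fun x => ?_, fun x y => ?_⟩ <;>
  · rw [frattini, Order.radical]
    simp only [Subgroup.mem_iInf]
    intro M hM
    first
      | exact (key M hM).1 x
      | exact (key M hM).2 x y

open scoped Pointwise in
theorem sup_mul {H N : Subgroup G} (h : H ≤ Subgroup.normalizer (N : Set G)) {x : G}
    (hx : x ∈ H ⊔ N) : ∃ y ∈ H, ∃ z ∈ N, y * z = x := by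
  have h2 := Subgroup.coe_mul_of_left_le_normalizer_right H N h
  have h3 : x ∈ (↑(H ⊔ N) : Set G) := hx
  rw [h2] at h3
  exact Set.mem_mul.1 h3

/-- An element fixed modulo fixed points of a coprime group is fixed. -/
theorem fixed_of_fixed_mod {r : ℕ} [hr : Fact r.Prime] {q v n : G} (hq : (orderOf q).Coprime r)
    (hn : ∃ k, n ^ r ^ k = 1) (h : q * v * q⁻¹ = v * n) (hqn : q * n * q⁻¹ = n) : n = 1 := by
  have key : ∀ i : ℕ, q ^ i * v * (q ^ i)⁻¹ = v * n ^ i := by
    intro i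
    induction i with
    | zero => simp
    | succ i ih =>
      rw [pow_succ', mul_inv_rev, show q * q ^ i * v * ((q ^ i)⁻¹ * q⁻¹) = q * (q ^ i * v * (q ^ i)⁻¹) * q⁻¹ by group,
        ih, show q * (v * n ^ i) * q⁻¹ = (q * v * q⁻¹) * (q * n * q⁻¹) ^ i by rw [conj_pow]; group,
        h, hqn, mul_assoc, ← pow_succ']
  have h1 := key (orderOf q)
  rw [pow_orderOf_eq_one, inv_one, one_mul, mul_one, left_eq_mul] at h1
  obtain ⟨k, hk⟩ := hn
  have hc : (orderOf q).Coprime (r ^ k) := hq.pow_right k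
  exact orderOf_eq_one_iff.1 (Nat.eq_one_of_dvd_coprimes hc (orderOf_dvd_of_pow_eq_one h1)
    (orderOf_dvd_of_pow_eq_one hk))

theorem mem_normalizer_map_of_characteristic {V : Subgroup G} (K : Subgroup V) [hK : K.Characteristic] :
    Subgroup.normalizer (V : Set G) ≤ Subgroup.normalizer ((K.map V.subtype : Subgroup G) : Set G) := by
  intro x hx
  have key : ∀ y ∈ Subgroup.normalizer (V : Set G), ∀ k ∈ K.map V.subtype, y * k * y⁻¹ ∈ K.map V.subtype := by
    rintro y hy _ ⟨k, hk, rfl⟩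
    let e : MulAut V := Subgroup.normalizerMonoidHom V ⟨y, hy⟩
    refine ⟨e k, ?_, rfl⟩
    rw [SetLike.mem_coe, ← Subgroup.characteristic_iff_map_eq.1 hK e]
    exact Subgroup.mem_map_of_mem _ hk
  rw [Subgroup.mem_normalizer_iff]
  refine fun k => ⟨key x hx k, fun h => ?_⟩
  have := key x⁻¹ ((Subgroup.normalizer (V : Set G)).inv_mem hx) _ h
  simpa [mul_assoc] using this

/-- Additive automorphisms of an elementary abelian group are linear. -/
theorem exists_linear {A U : Type u} [Group A] [AddCommGroup U] {r : ℕ} [Module (ZMod r) U] (f : A → U ≃+ U)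
    (h1 : ∀ u, f 1 u = u) (hmul : ∀ x y u, f (x * y) u = f x (f y u)) :
    ∃ φ : A →* (U ≃ₗ[ZMod r] U), ∀ x u, φ x u = f x u := by
  let g : A → (U ≃ₗ[ZMod r] U) := fun x =>
    { f x with map_smul' := fun c u => ZMod.map_smul (f x).toAddMonoidHom c u }
  exact ⟨{ toFun := g, map_one' := LinearEquiv.ext h1, map_mul' := fun x y => LinearEquiv.ext (hmul x y) },
    fun _ _ => rfl⟩

section Core

variable {p : ℕ} [hp : Fact p.Prime] {P A : Subgroup G} {a : G}

/-- The `q`-core of `A` centralises every `A`-invariant `r`-subgroup for `r ≠ q`. -/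
theorem centralises (hB : FixedBound.{u}) (hp3 : 3 < p) (hP : Nat.card P = p)
    (hAsol : Group.IsSolvable A) (ha : a ∈ A) (hA : A = P ⊔ P.map (MulAut.conj a).toMonoidHom)
    (hmax : ∀ B : Subgroup G, A ≤ B → Group.IsSolvable B →
      (∃ b ∈ B, B = P ⊔ P.map (MulAut.conj b).toMonoidHom) → B = A)
    {q r : ℕ} [Fact q.Prime] [hr : Fact r.Prime] (hqr : q ≠ r) (V : Subgroup G)
    (hV : IsPGroup r V) (hAV : A ≤ Subgroup.normalizer (V : Set G)) :
    ∀ x ∈ (Cfsg.pCore q A).map A.subtype, ∀ v ∈ V, x * v = v * x := by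
  classical
  set Q := (Cfsg.pCore q A).map A.subtype with hQdef
  have hQA : Q ≤ A := Subgroup.map_subtype_le _
  have hQn : ∀ x ∈ A, ∀ y ∈ Q, x * y * x⁻¹ ∈ Q := by
    rintro x hx _ ⟨y, hy, rfl⟩
    exact ⟨⟨x, hx⟩ * y * ⟨x, hx⟩⁻¹, (inferInstance : (Cfsg.pCore q A).Normal).conj_mem y hy _, rfl⟩
  have hQp : IsPGroup q Q := isPGroup_pCore.map _
  have hQord : ∀ x ∈ Q, (orderOf x).Coprime r := by
    intro x hx
    obtain ⟨k, hk⟩ := hQp ⟨x, hx⟩
    have hd : orderOf x ∣ q ^ k := orderOf_dvd_of_pow_eq_one (congrArg Subtype.val hk)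
    exact Nat.Coprime.coprime_dvd_left hd ((Nat.coprime_primes Fact.out hr.out).2 hqr |>.pow_left k)
  induction hn : Nat.card V using Nat.strong_induction_on generalizing V with
  | _ m ih =>
  subst hn
  by_contra hcon
  have hsmall : ∀ W : Subgroup G, W < V → A ≤ Subgroup.normalizer (W : Set G) →
      ∀ x ∈ Q, ∀ v ∈ W, x * v = v * x := by
    intro W hW hWn
    exact ih _ (Set.ncard_lt_ncard (SetLike.coe_ssubset_coe.2 hW) (Set.toFinite _)) W
      (hV.to_le hW.le) hWn rfl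
  have hconjV : ∀ x ∈ A, ∀ v ∈ V, x * v * x⁻¹ ∈ V := fun x hx v hv =>
    (Subgroup.mem_normalizer_iff.1 (hAV hx) v).1 hv
  set N := V ⊓ Subgroup.centralizer (Q : Set G) with hNdef
  have hNA : ∀ x ∈ A, ∀ n ∈ N, x * n * x⁻¹ ∈ N := by
    intro x hx n hn
    refine ⟨hconjV x hx n hn.1, Subgroup.mem_centralizer_iff.2 fun y hy => ?_⟩
    have h1 : x⁻¹ * y * x ∈ Q := by simpa using hQn x⁻¹ (A.inv_mem hx) y hy
    have h2 := Subgroup.mem_centralizer_iff.1 hn.2 _ h1
    calc y * (x * n * x⁻¹) = x * (x⁻¹ * y * x * n) * x⁻¹ := by group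
      _ = x * (n * (x⁻¹ * y * x)) * x⁻¹ := by rw [h2]
      _ = x * n * x⁻¹ * y := by group
  have hNV : ¬ V ≤ N := fun h => hcon fun x hx v hv => Subgroup.mem_centralizer_iff.1 (h hv).2 x hx
  set Φ := (frattini V).map V.subtype with hΦdef
  have hΦV : Φ ≤ V := Subgroup.map_subtype_le _
  haveI hVnt : Nontrivial V := by
    by_contra h
    rw [not_nontrivial_iff_subsingleton] at h
    refine hNV fun v hv => ?_
    rw [show v = 1 from congrArg Subtype.val (Subsingleton.elim (⟨v, hv⟩ : V) 1)]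
    exact one_mem _
  have hΦlt : Φ < V := by
    refine lt_of_le_of_ne hΦV fun h => ?_
    have h1 : frattini V = ⊤ := Subgroup.map_injective V.subtype_injective
      (h.trans ((MonoidHom.range_eq_map V.subtype).symm.trans V.range_subtype).symm)
    exact bot_ne_top (frattini_nongenerating (K := (⊥ : Subgroup V)) (by rw [bot_sup_eq, h1]))
  haveI : (frattini V).Characteristic := frattini_characteristic
  have hΦA : A ≤ Subgroup.normalizer (Φ : Set G) := hAV.trans (mem_normalizer_map_of_characteristic _)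
  have hΦN : Φ ≤ N := fun x hx => ⟨hΦV hx, Subgroup.mem_centralizer_iff.2 fun y hy =>
    hsmall Φ hΦlt hΦA y hy x hx⟩
  obtain ⟨hpow, hcom⟩ := powers_commutators_mem_frattini hV
  have hVcom : ∀ v ∈ V, ∀ w ∈ V, v * w * v⁻¹ * w⁻¹ ∈ Φ := fun v hv w hw =>
    ⟨_, hcom ⟨v, hv⟩ ⟨w, hw⟩, rfl⟩
  -- subgroups between `Φ` and `V`
  have hmid : ∀ M : Subgroup G, Φ ≤ M → M ≤ V → A ≤ Subgroup.normalizer (M : Set G) → M = V ∨ M ≤ N := by
    intro M _ hMV hMA
    rcases eq_or_lt_of_le hMV with h | h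
    · exact Or.inl h
    · exact Or.inr fun x hx => ⟨hMV hx, Subgroup.mem_centralizer_iff.2 fun y hy => hsmall M h hMA y hy x hx⟩
  have hVΦ : V ≤ Subgroup.normalizer (Φ : Set G) := fun v hv => by
    rw [Subgroup.mem_normalizer_iff]
    have key : ∀ w ∈ V, ∀ x ∈ Φ, w * x * w⁻¹ ∈ Φ := fun w hw x hx => by
      simpa using Φ.mul_mem (hVcom w hw x (hΦV hx)) hx
    exact fun x => ⟨key v hv x, fun h => by simpa [mul_assoc] using key v⁻¹ (V.inv_mem hv) _ h⟩
  have hVN : V ≤ Subgroup.normalizer (N : Set G) := fun v hv => by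
    rw [Subgroup.mem_normalizer_iff]
    have key : ∀ w ∈ V, ∀ x ∈ N, w * x * w⁻¹ ∈ N := fun w hw x hx => by
      simpa using N.mul_mem (hΦN (hVcom w hw x hx.1)) hx
    exact fun x => ⟨key v hv x, fun h => by simpa [mul_assoc] using key v⁻¹ (V.inv_mem hv) _ h⟩
  -- `A` meets `V` in `N`
  have hAVN : ∀ x ∈ A, x ∈ V → x ∈ N := by
    intro x hxA hxV
    refine ⟨hxV, Subgroup.mem_centralizer_iff.2 fun y hy => ?_⟩
    obtain ⟨y', hy', rfl⟩ := hy
    haveI : (V.subgroupOf A).Normal := ⟨fun n hn g => hconjV g g.2 n hn⟩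
    have hx' : (⟨x, hxA⟩ : A) ∈ Cfsg.pCore r A :=
      le_pCore (N := V.subgroupOf A) inferInstance (hV.comap_of_injective _ A.subtype_injective) hxV
    have hdis : Disjoint (Cfsg.pCore q A) (Cfsg.pCore r A) :=
      IsPGroup.disjoint_of_ne q r hqr _ _ isPGroup_pCore isPGroup_pCore
    exact congrArg Subtype.val (Subgroup.commute_of_normal_of_disjoint _ _ inferInstance inferInstance hdis
      y' ⟨x, hxA⟩ hy' hx').eq
  -- the module
  let N' : Subgroup V := N.subgroupOf V
  haveI : N'.Normal := ⟨fun n hn g => (Subgroup.mem_normalizer_iff.1 (hVN g.2) n).1 hn⟩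
  have hcomm : ∀ x y : V ⧸ N', x * y = y * x := fun x y => QuotientGroup.induction_on x fun x =>
    QuotientGroup.induction_on y fun y => by
      rw [← QuotientGroup.mk_mul, ← QuotientGroup.mk_mul, QuotientGroup.eq]
      show ((x * y)⁻¹ * (y * x) : V).1 ∈ N
      push_cast
      refine hΦN ?_
      simpa [mul_assoc] using hVcom _ (V.inv_mem y.2) _ (V.inv_mem x.2)
  obtain ⟨U, _, _, _, π, φ, hπ0, hπadd, hπsurj, hact⟩ : ∃ (U : Type u) (_ : AddCommGroup U)
      (_ : Module (ZMod r) U) (_ : Finite U) (π : ∀ v : G, v ∈ V → U) (φ : A →* (U ≃ₗ[ZMod r] U)),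
      (∀ (v : G) (hv : v ∈ V), π v hv = 0 ↔ v ∈ N) ∧
      (∀ (v w : G) (hv : v ∈ V) (hw : w ∈ V), π (v * w) (V.mul_mem hv hw) = π v hv + π w hw) ∧
      (∀ u : U, ∃ (v : G) (hv : v ∈ V), π v hv = u) ∧
      (∀ (x : A) (v : G) (hv : v ∈ V), φ x (π v hv) = π ((x : G) * v * (x : G)⁻¹) (hconjV x x.2 v hv)) := by
    letI : CommGroup (V ⧸ N') := { (inferInstance : Group (V ⧸ N')) with mul_comm := hcomm }
    let π : ∀ v : G, v ∈ V → Additive (V ⧸ N') := fun v hv => Additive.ofMul ((⟨v, hv⟩ : V) : V ⧸ N')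
    have hπsurj : ∀ u : Additive (V ⧸ N'), ∃ (v : G) (hv : v ∈ V), π v hv = u := fun u => by
      obtain ⟨v, hv⟩ := QuotientGroup.mk_surjective (Additive.toMul u)
      exact ⟨v.1, v.2, congrArg Additive.ofMul hv⟩
    have hπ0 : ∀ (v : G) (hv : v ∈ V), π v hv = 0 ↔ v ∈ N := fun v hv =>
      (QuotientGroup.eq_one_iff (N := N') (⟨v, hv⟩ : V)).trans Iff.rfl
    letI : Module (ZMod r) (Additive (V ⧸ N')) := AddCommGroup.zmodModule fun u => by
      obtain ⟨v, hv, rfl⟩ := hπsurj u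
      show Additive.ofMul (((⟨v, hv⟩ : V) : V ⧸ N') ^ r) = 0
      rw [← QuotientGroup.mk_pow]
      exact (hπ0 _ ((⟨v, hv⟩ : V) ^ r).2).2 (hΦN ⟨_, hpow ⟨v, hv⟩, rfl⟩)
    let σ : A →* MulAut V := (Subgroup.normalizerMonoidHom V).comp (Subgroup.inclusion hAV)
    have hσN : ∀ x : A, N'.map (σ x).toMonoidHom = N' := by
      intro x
      refine le_antisymm ?_ fun n hn => ?_
      · rintro _ ⟨n, hn, rfl⟩
        exact hNA x x.2 n hn
      · refine ⟨σ x⁻¹ n, hNA _ (x⁻¹).2 n hn, ?_⟩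
        show σ x (σ x⁻¹ n) = n
        rw [← MulAut.mul_apply, ← map_mul, mul_inv_cancel, map_one]
        rfl
    let f : A → (Additive (V ⧸ N') ≃+ Additive (V ⧸ N')) := fun x =>
      MulEquiv.toAdditive (QuotientGroup.congr N' N' (σ x) (hσN x))
    have hact : ∀ (x : A) (v : G) (hv : v ∈ V), f x (π v hv) = π ((x : G) * v * (x : G)⁻¹) (hconjV x x.2 v hv) :=
      fun x v hv => rfl
    obtain ⟨φ, hφ⟩ := exists_linear (r := r) f
      (fun u => by
        obtain ⟨v, hv, rfl⟩ := hπsurj u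
        rw [hact]
        simp [π])
      (fun x y u => by
        obtain ⟨v, hv, rfl⟩ := hπsurj u
        rw [hact, hact, hact]
        simp [π, mul_assoc])
    exact ⟨_, inferInstance, inferInstance, inferInstanceAs (Finite (V ⧸ N')), π, φ, hπ0,
      fun v w hv hw => rfl, hπsurj, fun x v hv => (hφ x _).trans (hact x v hv)⟩
  have hπeq : ∀ {v w : G} (hv : v ∈ V) (hw : w ∈ V), v = w → π v hv = π w hw := by
    intro v w hv hw h; subst h; rfl
  have hπinv : ∀ (v : G) (hv : v ∈ V), π v⁻¹ (V.inv_mem hv) = -π v hv := fun v hv => by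
    refine eq_neg_of_add_eq_zero_left ?_
    rw [← hπadd]
    exact (hπ0 _ _).2 (by rw [inv_mul_cancel]; exact N.one_mem)
  have hπsub : ∀ (v w : G) (hv : v ∈ V) (hw : w ∈ V),
      π (v * w⁻¹) (V.mul_mem hv (V.inv_mem hw)) = π v hv - π w hw :=
    fun v w hv hw => by rw [hπadd v w⁻¹ hv (V.inv_mem hw), hπinv w hw, sub_eq_add_neg]
  haveI : Nontrivial U := by
    obtain ⟨v, hv, hvN⟩ := Set.not_subset.1 hNV
    exact nontrivial_of_ne (π v hv) 0 fun h => hvN ((hπ0 v hv).1 h)
  let QA : Subgroup A := Cfsg.pCore q A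
  have hQmem : ∀ x : A, x ∈ QA → (x : G) ∈ Q := fun x hx => ⟨x, hx, rfl⟩
  have hQr : ¬ r ∣ Nat.card QA := by
    obtain ⟨k, hk⟩ := IsPGroup.iff_card.1 (isPGroup_pCore (p := q) (G := A))
    intro h
    rw [hk] at h
    exact hqr ((Nat.prime_dvd_prime_iff_eq hr.out Fact.out).1 (hr.out.dvd_of_dvd_pow h)).symm
  have hfree : ∀ u : U, (∀ x ∈ QA, φ x u = u) → u = 0 := by
    intro u hu
    obtain ⟨v, hv, rfl⟩ := hπsurj u
    refine (hπ0 v hv).2 ⟨hv, Subgroup.mem_centralizer_iff.2 fun y hy => ?_⟩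
    obtain ⟨y', hy', rfl⟩ := hy
    have h1 := hu y' hy'
    rw [hact] at h1
    have h1' : π (v⁻¹ * (y' * v * (y' : G)⁻¹)) (V.mul_mem (V.inv_mem hv) (hconjV y' y'.2 v hv)) = 0 := by
      rw [hπadd _ _ (V.inv_mem hv) (hconjV y' y'.2 v hv), h1, hπinv v hv, neg_add_cancel]
    set n := v⁻¹ * (y' * v * (y' : G)⁻¹) with hn
    have hnN : n ∈ N := (hπ0 _ _).1 h1'
    have hn1 : n = 1 := by
      refine fixed_of_fixed_mod (hQord _ (hQmem y' hy')) ?_ (v := v) ?_ ?_
      · obtain ⟨k, hk⟩ := hV ⟨n, hnN.1⟩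
        exact ⟨k, congrArg Subtype.val hk⟩
      · rw [hn]; group
      · rw [Subgroup.mem_centralizer_iff.1 hnN.2 _ (hQmem y' hy'), mul_inv_cancel_right]
    rw [hn, inv_mul_eq_one, eq_mul_inv_iff_mul_eq] at hn1
    exact hn1.symm
  have hirr : ∀ W : Submodule (ZMod r) U, (∀ x : A, ∀ u ∈ W, φ x u ∈ W) → W = ⊥ ∨ W = ⊤ := by
    intro W hW
    let M : Subgroup G :=
      { carrier := {v | ∃ hv : v ∈ V, π v hv ∈ W}
        mul_mem' := by
          rintro v w ⟨hv, h1⟩ ⟨hw, h2⟩
          exact ⟨V.mul_mem hv hw, (hπadd v w hv hw) ▸ W.add_mem h1 h2⟩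
        one_mem' := ⟨V.one_mem, (show π 1 V.one_mem = 0 from (hπ0 _ _).2 N.one_mem) ▸ W.zero_mem⟩
        inv_mem' := by
          rintro v ⟨hv, h1⟩
          exact ⟨V.inv_mem hv, (hπinv v hv) ▸ W.neg_mem h1⟩ }
    have hΦM : Φ ≤ M := fun x hx => ⟨hΦV hx, ((hπ0 x (hΦV hx)).2 (hΦN hx)) ▸ W.zero_mem⟩
    have hMA : A ≤ Subgroup.normalizer (M : Set G) := fun x hx => by
      rw [Subgroup.mem_normalizer_iff]
      have key : ∀ y ∈ A, ∀ v ∈ M, y * v * y⁻¹ ∈ M := fun y hy v hv =>
        ⟨hconjV y hy v hv.1, hact ⟨y, hy⟩ v hv.1 ▸ hW ⟨y, hy⟩ _ hv.2⟩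
      exact fun v => ⟨key x hx v, fun h => by simpa [mul_assoc] using key x⁻¹ (A.inv_mem hx) _ h⟩
    rcases hmid M hΦM (fun v hv => hv.1) hMA with h | h
    · refine Or.inr (eq_top_iff.2 fun u _ => ?_)
      obtain ⟨v, hv, rfl⟩ := hπsurj u
      exact (h.ge hv).2
    · refine Or.inl (eq_bot_iff.2 fun u hu => ?_)
      obtain ⟨v, hv, rfl⟩ := hπsurj u
      exact (hπ0 v hv).2 (h ⟨hv, hu⟩)
  have hPA : P ≤ A := hA ▸ le_sup_left
  let PA : Subgroup A := P.subgroupOf A
  have hPA' : Nat.card PA = p := (Nat.card_congr (Subgroup.subgroupOfEquivOfLe hPA).toEquiv).trans hP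
  have hgen : PA ⊔ PA.map (MulAut.conj (⟨a, ha⟩ : A)).toMonoidHom = ⊤ := by
    apply Subgroup.map_injective A.subtype_injective
    rw [Subgroup.map_sup, Subgroup.map_map, ← MonoidHom.range_eq_map, A.range_subtype]
    have h1 : PA.map A.subtype = P := by
      rw [Subgroup.subgroupOf_map_subtype, inf_eq_left.2 hPA]
    have h2 : PA.map (A.subtype.comp (MulAut.conj (⟨a, ha⟩ : A)).toMonoidHom) =
        P.map (MulAut.conj a).toMonoidHom := by
      conv_rhs => rw [← h1, Subgroup.map_map]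
      rfl
    rw [h1, h2, ← hA]
  have hne : ∃ x : A, φ x ≠ 1 := by
    by_contra h
    push_neg at h
    obtain ⟨u, hu⟩ := exists_ne (0 : U)
    exact hu (hfree u fun x _ => by rw [h x]; rfl)
  refine sum_fixed_ne_top hB hp3 PA hPA' ⟨a, ha⟩ hgen φ hirr hne ?_
  rw [eq_top_iff]
  intro u _
  obtain ⟨v, hv, rfl⟩ := hπsurj u
  -- the subgroup generated by `P` and a conjugate
  set B := P ⊔ P.map (MulAut.conj (v * a)).toMonoidHom with hBdef
  have hHsolv : Group.IsSolvable ↥(A ⊔ V) := by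
    haveI : (V.subgroupOf (A ⊔ V)).Normal :=
      (Subgroup.normal_subgroupOf_iff_le_normalizer le_sup_right).2 (sup_le hAV Subgroup.le_normalizer)
    haveI := hV.isNilpotent
    haveI : Group.IsSolvable ↥(V.subgroupOf (A ⊔ V)) :=
      Group.isSolvable_of_surjective (f := (Subgroup.subgroupOfEquivOfLe (le_sup_right : V ≤ A ⊔ V)).symm.toMonoidHom)
        (MulEquiv.surjective _)
    let f : A →* (↥(A ⊔ V) ⧸ V.subgroupOf (A ⊔ V)) :=
      (QuotientGroup.mk' _).comp (Subgroup.inclusion le_sup_left)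
    have hf : Function.Surjective f := by
      intro y
      induction y using QuotientGroup.induction_on with
      | _ y =>
        obtain ⟨x, hx, w, hw, hxw⟩ := sup_mul hAV y.2
        refine ⟨⟨x, hx⟩, ?_⟩
        refine QuotientGroup.eq.2 ?_
        show x⁻¹ * (y : G) ∈ V
        rw [← hxw, inv_mul_cancel_left]
        exact hw
    haveI : Group.IsSolvable (↥(A ⊔ V) ⧸ V.subgroupOf (A ⊔ V)) := Group.isSolvable_of_surjective hf
    exact Group.isSolvable_of_ker_le_range (V.subgroupOf (A ⊔ V)).subtype (QuotientGroup.mk' (V.subgroupOf (A ⊔ V)))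
      (by rw [QuotientGroup.ker_mk', Subgroup.range_subtype])
  have hBH : B ≤ A ⊔ V := sup_le (hPA.trans le_sup_left) (by
    rintro _ ⟨y, hy, rfl⟩
    exact (A ⊔ V).mul_mem ((A ⊔ V).mul_mem ((A ⊔ V).mul_mem (Subgroup.mem_sup_right hv) (Subgroup.mem_sup_left ha))
      (Subgroup.mem_sup_left (hPA hy))) ((A ⊔ V).inv_mem ((A ⊔ V).mul_mem (Subgroup.mem_sup_right hv) (Subgroup.mem_sup_left ha))))
  have hABV : A ≤ B ⊔ V := by
    rw [hA]
    refine sup_le (le_trans le_sup_left (le_sup_left : B ≤ B ⊔ V)) ?_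
    rintro _ ⟨y, hy, rfl⟩
    have h1 : v * a * y * (v * a)⁻¹ ∈ B := Subgroup.mem_sup_right ⟨y, hy, rfl⟩
    have h2 : v⁻¹ * (v * a * y * (v * a)⁻¹) * v ∈ B ⊔ V :=
      (B ⊔ V).mul_mem ((B ⊔ V).mul_mem (Subgroup.mem_sup_right (V.inv_mem hv)) (Subgroup.mem_sup_left h1))
        (Subgroup.mem_sup_right hv)
    simpa [mul_assoc] using h2
  have hBN : B ≤ Subgroup.normalizer (Φ : Set G) := hBH.trans (sup_le hΦA hVΦ)
  -- the intersection with `V`
  let M : Subgroup G := (B ⊔ Φ) ⊓ V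
  have hMA : A ≤ Subgroup.normalizer (M : Set G) := by
    refine hABV.trans (sup_le (fun x hx => ?_) (fun x hx => ?_))
    · rw [Subgroup.mem_normalizer_iff]
      have key : ∀ y ∈ B, ∀ w ∈ M, y * w * y⁻¹ ∈ M := fun y hy w hw =>
        ⟨(B ⊔ Φ).mul_mem ((B ⊔ Φ).mul_mem (Subgroup.mem_sup_left hy) hw.1) ((B ⊔ Φ).inv_mem (Subgroup.mem_sup_left hy)),
          (Subgroup.mem_normalizer_iff.1 ((hBH.trans (sup_le hAV Subgroup.le_normalizer)) hy) w).1 hw.2⟩
      exact fun w => ⟨key x hx w, fun h => by simpa [mul_assoc] using key x⁻¹ (B.inv_mem hx) _ h⟩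
    · rw [Subgroup.mem_normalizer_iff]
      have key : ∀ y ∈ V, ∀ w ∈ M, y * w * y⁻¹ ∈ M := fun y hy w hw => by
        refine ⟨?_, V.mul_mem (V.mul_mem hy hw.2) (V.inv_mem hy)⟩
        simpa using (B ⊔ Φ).mul_mem (Subgroup.mem_sup_right (hVcom y hy w hw.2)) hw.1
      exact fun w => ⟨key x hx w, fun h => by simpa [mul_assoc] using key x⁻¹ (V.inv_mem hx) _ h⟩
  rcases hmid M (fun x hx => ⟨Subgroup.mem_sup_right hx, hΦV hx⟩) inf_le_right hMA with hM | hM
  · exfalso
    have hVB : V ≤ B := by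
      have htop : (B.subgroupOf V) ⊔ frattini V = ⊤ := by
        rw [eq_top_iff]
        intro w _
        have hwM : (w : G) ∈ (B ⊔ Φ) := (hM.ge w.2).1
        obtain ⟨y, hy, z, hz, hyz⟩ := sup_mul hBN hwM
        have hyV : y ∈ V := by
          rw [show y = (w : G) * z⁻¹ by rw [← hyz, mul_inv_cancel_right]]
          exact V.mul_mem w.2 (V.inv_mem (hΦV hz))
        obtain ⟨z', hz', rfl⟩ := hz
        rw [show w = (⟨y, hyV⟩ : V) * z' from Subtype.ext hyz.symm]
        exact Subgroup.mul_mem_sup hy hz'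
      exact Subgroup.subgroupOf_eq_top.1 (frattini_nongenerating htop)
    have hAB : A ≤ B := hABV.trans (sup_le le_rfl hVB)
    haveI := hHsolv
    have hBA : B = A := hmax B hAB (Group.isSolvable_of_isSolvable_injective (f := Subgroup.inclusion hBH) (Subgroup.inclusion_injective hBH))
      ⟨v * a, B.mul_mem (hVB hv) (hAB ha), rfl⟩
    exact hNV fun x hx => hAVN x (hBA ▸ hVB hx) hx
  · set K := B ⊔ N with hKdef
    have hBnN : B ≤ Subgroup.normalizer (N : Set G) := hBH.trans (sup_le (fun x hx => by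
      rw [Subgroup.mem_normalizer_iff]
      exact fun n => ⟨hNA x hx n, fun h => by simpa [mul_assoc] using hNA x⁻¹ (A.inv_mem hx) _ h⟩) hVN)
    have hKV : ∀ x ∈ K, x ∈ V → x ∈ N := by
      intro x hxK hxV
      obtain ⟨y, hy, z, hz, rfl⟩ := sup_mul hBnN hxK
      have hyV : y ∈ V := by simpa using V.mul_mem hxV (V.inv_mem hz.1)
      exact N.mul_mem (hM ⟨Subgroup.mem_sup_left hy, hyV⟩) hz
    have hdec : ∀ x : A, ∃ w, ∃ hw : w ∈ V, w * x ∈ K := by
      intro x
      have hx : (x : G) ∈ B ⊔ V := hABV x.2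
      obtain ⟨y, hy, z, hz, hyz⟩ := sup_mul (hBH.trans (sup_le hAV Subgroup.le_normalizer)) hx
      refine ⟨y * z⁻¹ * y⁻¹, (Subgroup.mem_normalizer_iff.1 ((hBH.trans (sup_le hAV Subgroup.le_normalizer)) hy) _).1
        (V.inv_mem hz), ?_⟩
      rw [← hyz, show y * z⁻¹ * y⁻¹ * (y * z) = y by group]
      exact Subgroup.mem_sup_left hy
    choose w hwV hwK using hdec
    let c : A → U := fun x => π (w x) (hwV x)
    have huniq : ∀ (x : A) (z : G) (hz : z ∈ V), z * x ∈ K → c x = π z hz := by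
      intro x z hz hzK
      have h1 : w x * z⁻¹ ∈ N := hKV _ (by simpa [mul_assoc] using K.mul_mem (hwK x) (K.inv_mem hzK))
        (V.mul_mem (hwV x) (V.inv_mem hz))
      exact eq_of_sub_eq_zero (((hπsub _ _ (hwV x) hz).symm).trans ((hπ0 _ _).2 h1))
    have hc : ∀ x y : A, c (x * y) = c x + φ x (c y) := by
      intro x y
      have h1 := huniq (x * y) (w x * (x * w y * (x : G)⁻¹)) (V.mul_mem (hwV x) (hconjV x x.2 _ (hwV y))) (by
        simpa [mul_assoc] using K.mul_mem (hwK x) (hwK y))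
      rw [h1, hπadd, hact]
    obtain ⟨z, hz⟩ := exists_coboundary φ QA hQr hfree c hc
    have hzP : z ∈ fixedSub φ (PA : Set A) := by
      intro x hx
      have h0 : c x = 0 := (huniq x 1 V.one_mem (by
        rw [one_mul]
        exact Subgroup.mem_sup_left (Subgroup.mem_sup_left hx))).trans ((hπ0 _ _).2 N.one_mem)
      rw [hz x, sub_eq_zero] at h0
      exact h0.symm
    refine Submodule.mem_sup.2 ⟨z, hzP, π v hv - z, ?_, add_sub_cancel _ _⟩
    rintro _ ⟨y, hy, rfl⟩
    set y' : A := (MulAut.conj (⟨a, ha⟩ : A)).toMonoidHom y with hy'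
    have h0 : c y' = π v hv - φ y' (π v hv) := by
      rw [huniq y' (v * (y' * v * (y' : G)⁻¹)⁻¹) (V.mul_mem hv (V.inv_mem (hconjV y' y'.2 v hv))) ?_, hπsub]
      · rw [hact]
      · refine Subgroup.mem_sup_left (Subgroup.mem_sup_right ⟨(y : G), hy, ?_⟩)
        simp [hy', mul_assoc]
    rw [hz y'] at h0
    rw [map_sub]
    linear_combination (norm := abel) h0

end Core

/-- The main statement. -/
theorem fitting_mul_nilpotent (hB : FixedBound.{u}) {p : ℕ} [Fact p.Prime] (hp : 3 < p) (P : Subgroup G)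
    (hP : Nat.card P = p) (A : Subgroup G)
    (hA : Group.IsSolvable ↥A ∧ ∃ a ∈ A, A = P ⊔ P.map (MulAut.conj a).toMonoidHom)
    (hmax : ∀ B : Subgroup G, A ≤ B → Group.IsSolvable ↥B →
      (∃ b ∈ B, B = P ⊔ P.map (MulAut.conj b).toMonoidHom) → B = A)
    (V : Subgroup G) (hV : Group.IsNilpotent ↥V) (hAV : A ≤ Subgroup.normalizer (V : Set G)) :
    Group.IsNilpotent ↥((Cfsg.fittingSubgroup ↥A).map A.subtype ⊔ V) := by
  obtain ⟨hAsol, a, ha, hAeq⟩ := hA
  set J := (Cfsg.fittingSubgroup ↥A).map A.subtype ⊔ V with hJdef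
  let T : ℕ → Subgroup G := fun q => (Cfsg.pCore q A).map A.subtype ⊔ (Cfsg.pCore q V).map V.subtype
  have hVA : ∀ q : ℕ, A ≤ Subgroup.normalizer (((Cfsg.pCore q V).map V.subtype : Subgroup G) : Set G) :=
    fun q => hAV.trans (mem_normalizer_map_of_characteristic _)
  have hTp : ∀ q : ℕ, q.Prime → IsPGroup q (T q) := fun q hq => by
    haveI : Fact q.Prime := ⟨hq⟩
    exact IsPGroup.to_sup_of_normal_right' (isPGroup_pCore.map _) (isPGroup_pCore.map _)
      ((Subgroup.map_subtype_le _).trans (hVA q))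
  have hcomm : ∀ q r : ℕ, q.Prime → r.Prime → q ≠ r → T q ≤ Subgroup.centralizer (T r : Set G) := by
    intro q r hq hr hqr
    haveI : Fact q.Prime := ⟨hq⟩
    haveI : Fact r.Prime := ⟨hr⟩
    have same : ∀ (W : Subgroup G) (q r : ℕ) [Fact q.Prime] [Fact r.Prime], q ≠ r →
        ∀ x ∈ (Cfsg.pCore q W).map W.subtype, ∀ y ∈ (Cfsg.pCore r W).map W.subtype, y * x = x * y := by
      rintro W q r _ _ hqr _ ⟨x, hx, rfl⟩ _ ⟨y, hy, rfl⟩
      exact congrArg Subtype.val (Subgroup.commute_of_normal_of_disjoint _ _ inferInstance inferInstance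
        (IsPGroup.disjoint_of_ne q r hqr _ _ isPGroup_pCore isPGroup_pCore) x y hx hy).eq.symm
    have mixed : ∀ (q r : ℕ) [Fact q.Prime] [Fact r.Prime], q ≠ r →
        ∀ x ∈ (Cfsg.pCore q A).map A.subtype, ∀ y ∈ (Cfsg.pCore r V).map V.subtype, x * y = y * x :=
      fun q r _ _ hqr x hx y hy => centralises hB hp hP hAsol ha hAeq hmax hqr _
        (isPGroup_pCore.map _) (hVA r) x hx y hy
    refine sup_le (fun x hx => ?_) (fun x hx => ?_) <;>
    · refine Subgroup.mem_centralizer_iff.2 fun y hy => ?_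
      revert y
      show ∀ y ∈ T r, y * x = x * y
      intro y hy
      have key : T r ≤ Subgroup.centralizer ({x} : Set G) := by
        refine sup_le (fun y hy => Subgroup.mem_centralizer_singleton_iff.2 ?_)
          (fun y hy => Subgroup.mem_centralizer_singleton_iff.2 ?_)
        all_goals first
          | exact same A q r hqr x hx y hy
          | exact same V q r hqr x hx y hy
          | exact (mixed q r hqr x hx y hy).symm
          | exact (mixed r q hqr.symm y hy x hx)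
      exact Subgroup.mem_centralizer_singleton_iff.1 (key hy)
  have hVtop : Cfsg.fittingSubgroup ↥V = ⊤ :=
    top_le_iff.1 (le_fitting inferInstance (Group.nilpotent_of_surjective
      (Subgroup.topEquiv (G := ↥V)).symm.toMonoidHom (MulEquiv.surjective _)))
  have hJT : J = ⨆ (q : ℕ) (_ : q.Prime), T q := by
    refine le_antisymm (sup_le ?_ ?_) (iSup₂_le fun q hq => ?_)
    · rw [fitting_eq_iSup_pCore, Subgroup.map_iSup]
      refine iSup_le fun q => ?_
      rw [Subgroup.map_iSup]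
      exact iSup_le fun hq => le_trans le_sup_left (le_iSup₂ (f := fun (q : ℕ) (_ : q.Prime) => T q) q hq)
    · calc V = (Cfsg.fittingSubgroup ↥V).map V.subtype := by
            rw [hVtop, ← MonoidHom.range_eq_map, V.range_subtype]
        _ ≤ _ := by
          rw [fitting_eq_iSup_pCore, Subgroup.map_iSup]
          refine iSup_le fun q => ?_
          rw [Subgroup.map_iSup]
          exact iSup_le fun hq => le_trans le_sup_right (le_iSup₂ (f := fun (q : ℕ) (_ : q.Prime) => T q) q hq)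
    · haveI : Fact q.Prime := ⟨hq⟩
      exact sup_le_sup (Subgroup.map_mono pCore_le_fitting) (Subgroup.map_subtype_le _)
  have hTnorm : ∀ q : ℕ, q.Prime → J ≤ Subgroup.normalizer (T q : Set G) := by
    intro q hq
    rw [hJT]
    refine iSup₂_le fun r hr => ?_
    rcases eq_or_ne r q with rfl | h
    · exact Subgroup.le_normalizer
    · exact (hcomm r q hr hq h).trans (Subgroup.centralizer_le_normalizer _)
  have hTJ : ∀ q : ℕ, q.Prime → T q ≤ J := fun q hq => by
    rw [hJT]; exact le_iSup₂ (f := fun (q : ℕ) (_ : q.Prime) => T q) q hq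
  have htop : Cfsg.fittingSubgroup ↥J = ⊤ := by
    rw [eq_top_iff]
    apply (Subgroup.map_le_map_iff_of_injective J.subtype_injective).1
    rw [← MonoidHom.range_eq_map, J.range_subtype]
    conv_lhs => rw [hJT]
    refine iSup₂_le fun q hq => ?_
    haveI : Fact q.Prime := ⟨hq⟩
    haveI : ((T q).subgroupOf J).Normal :=
      (Subgroup.normal_subgroupOf_iff_le_normalizer (hTJ q hq)).2 (hTnorm q hq)
    refine le_trans (le_of_eq ?_) (Subgroup.map_mono ((le_pCore (p := q) (N := (T q).subgroupOf J) inferInstance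
      ((hTp q hq).comap_of_injective _ J.subtype_injective)).trans pCore_le_fitting))
    rw [Subgroup.subgroupOf_map_subtype, inf_eq_left.2 (hTJ q hq)]
  have := (instIsNilpotentFitting (G := ↥J))
  rw [htop] at this
  exact Group.nilpotent_of_surjective (Subgroup.topEquiv (G := ↥J)).toMonoidHom (Subgroup.topEquiv (G := ↥J)).surjective

end CfsgLib.Flavell45
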